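import Mathlib
import Cfsg.Agent.Lib.Helper82.Alt2.Defs

set_option autoImplicit false

/-!
# S2928 tools [KLEIN]: the double transpositions on a 4-set
-/

namespace Cfsg.Agent.Lib.Helper62.Alt2

open Equiv
open Cfsg.Agent.Lib.Helper82.Alt2

variable {n : ℕ}

theorem dswap_apply_1 {a b c d : Fin n} (hac : a ≠ c) (had : a ≠ d) :
    (swap a b * swap c d) a = b := by
  rw [Perm.mul_apply, swap_apply_of_ne_of_ne hac had, swap_apply_left]

theorem dswap_apply_2 {a b c d : Fin n} (hbc : b ≠ c) (hbd : b ≠ d) :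
    (swap a b * swap c d) b = a := by
  rw [Perm.mul_apply, swap_apply_of_ne_of_ne hbc hbd, swap_apply_right]

theorem dswap_apply_3 {a b c d : Fin n} (hda : d ≠ a) (hdb : d ≠ b) :
    (swap a b * swap c d) c = d := by
  rw [Perm.mul_apply, swap_apply_left, swap_apply_of_ne_of_ne hda hdb]

theorem dswap_apply_4 {a b c d : Fin n} (hca : c ≠ a) (hcb : c ≠ b) :
    (swap a b * swap c d) d = c := by
  rw [Perm.mul_apply, swap_apply_right, swap_apply_of_ne_of_ne hca hcb]

theorem dswap_apply_other {a b c d x : Fin n} (hxa : x ≠ a) (hxb : x ≠ b) (hxc : x ≠ c)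
    (hxd : x ≠ d) : (swap a b * swap c d) x = x := by
  rw [Perm.mul_apply, swap_apply_of_ne_of_ne hxc hxd, swap_apply_of_ne_of_ne hxa hxb]

theorem card_four {a b c d : Fin n} (hab : a ≠ b) (hac : a ≠ c) (had : a ≠ d) (hbc : b ≠ c)
    (hbd : b ≠ d) (hcd : c ≠ d) : ({a, b, c, d} : Finset (Fin n)).card = 4 := by
  have n1 : a ∉ ({b, c, d} : Finset (Fin n)) := by
    simp only [Finset.mem_insert, Finset.mem_singleton]
    rintro (h | h | h)
    · exact hab h
    · exact hac h
    · exact had h
  have n2 : b ∉ ({c, d} : Finset (Fin n)) := by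
    simp only [Finset.mem_insert, Finset.mem_singleton]
    rintro (h | h)
    · exact hbc h
    · exact hbd h
  have n3 : c ∉ ({d} : Finset (Fin n)) := by
    simp only [Finset.mem_singleton]
    exact hcd
  rw [Finset.card_insert_of_notMem n1, Finset.card_insert_of_notMem n2,
    Finset.card_insert_of_notMem n3, Finset.card_singleton]

/-- four distinct elements of a 4-set exhaust it -/
theorem eq_of_four {s : Finset (Fin n)} (hs : s.card = 4) {a b c d : Fin n} (ha : a ∈ s)
    (hb : b ∈ s) (hc : c ∈ s) (hd : d ∈ s) (hab : a ≠ b) (hac : a ≠ c) (had : a ≠ d)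
    (hbc : b ≠ c) (hbd : b ≠ d) (hcd : c ≠ d) : s = {a, b, c, d} := by
  symm
  apply Finset.eq_of_subset_of_card_le
  · intro x hx
    simp only [Finset.mem_insert, Finset.mem_singleton] at hx
    rcases hx with rfl | rfl | rfl | rfl
    · exact ha
    · exact hb
    · exact hc
    · exact hd
  · rw [hs, card_four hab hac had hbc hbd hcd]

/-- the double transposition `(a b)(c d)` is a `DT` on `{a, b, c, d}` -/
theorem dt_swap {a b c d : Fin n} (hab : a ≠ b) (hac : a ≠ c) (had : a ≠ d) (hbc : b ≠ c)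
    (hbd : b ≠ d) (hcd : c ≠ d) : DT {a, b, c, d} (swap a b * swap c d) := by
  refine ⟨?_, fun x => ?_⟩
  · ext x
    rw [Perm.mul_apply, Perm.one_apply]
    by_cases hxa : x = a
    · rw [hxa, dswap_apply_1 hac had, dswap_apply_2 hbc hbd]
    by_cases hxb : x = b
    · rw [hxb, dswap_apply_2 hbc hbd, dswap_apply_1 hac had]
    by_cases hxc : x = c
    · rw [hxc, dswap_apply_3 had.symm hbd.symm, dswap_apply_4 hac.symm hbc.symm]
    by_cases hxd : x = d
    · rw [hxd, dswap_apply_4 hac.symm hbc.symm, dswap_apply_3 had.symm hbd.symm]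
    rw [dswap_apply_other hxa hxb hxc hxd, dswap_apply_other hxa hxb hxc hxd]
  · simp only [Finset.mem_insert, Finset.mem_singleton]
    by_cases hxa : x = a
    · rw [hxa, dswap_apply_1 hac had]
      exact ⟨fun _ => Or.inl rfl, fun _ => hab.symm⟩
    by_cases hxb : x = b
    · rw [hxb, dswap_apply_2 hbc hbd]
      exact ⟨fun _ => Or.inr (Or.inl rfl), fun _ => hab⟩
    by_cases hxc : x = c
    · rw [hxc, dswap_apply_3 had.symm hbd.symm]
      exact ⟨fun _ => Or.inr (Or.inr (Or.inl rfl)), fun _ => hcd.symm⟩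
    by_cases hxd : x = d
    · rw [hxd, dswap_apply_4 hac.symm hbc.symm]
      exact ⟨fun _ => Or.inr (Or.inr (Or.inr rfl)), fun _ => hcd⟩
    rw [dswap_apply_other hxa hxb hxc hxd]
    constructor
    · intro h
      exact absurd rfl h
    · rintro (h | h | h | h)
      · exact absurd h hxa
      · exact absurd h hxb
      · exact absurd h hxc
      · exact absurd h hxd

theorem dt_sq_apply {s : Finset (Fin n)} {g : Perm (Fin n)} (hg : DT s g) (x : Fin n) :
    g (g x) = x := by
  have h := congrArg (fun σ : Perm (Fin n) => σ x) hg.1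
  simpa using h

theorem dt_inv {s : Finset (Fin n)} {g : Perm (Fin n)} (hg : DT s g) : g⁻¹ = g :=
  inv_eq_of_mul_eq_one_left hg.1

theorem dt_apply_ne {s : Finset (Fin n)} {g : Perm (Fin n)} (hg : DT s g) {x : Fin n}
    (hx : x ∈ s) : g x ≠ x := (hg.2 x).mpr hx

theorem dt_apply_of_notMem {s : Finset (Fin n)} {g : Perm (Fin n)} (hg : DT s g) {x : Fin n}
    (hx : x ∉ s) : g x = x := by
  by_contra h
  exact hx ((hg.2 x).mp h)

/-- a `DT` on `s` maps `s` to `s` -/
theorem dt_apply_mem {s : Finset (Fin n)} {g : Perm (Fin n)} (hg : DT s g) {x : Fin n}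
    (hx : x ∈ s) : g x ∈ s := by
  apply (hg.2 (g x)).mp
  rw [dt_sq_apply hg]
  exact (dt_apply_ne hg hx).symm

/-- every `DT` on a 4-set is a double transposition -/
theorem dt_cases {s : Finset (Fin n)} {g : Perm (Fin n)} (hs : s.card = 4) (hg : DT s g) :
    ∃ a b c d : Fin n, a ≠ b ∧ a ≠ c ∧ a ≠ d ∧ b ≠ c ∧ b ≠ d ∧ c ≠ d ∧ s = {a, b, c, d} ∧
      g = swap a b * swap c d := by
  obtain ⟨a, ha⟩ : s.Nonempty := Finset.card_pos.mp (by omega)
  have hb : g a ∈ s := dt_apply_mem hg ha
  have hab : a ≠ g a := (dt_apply_ne hg ha).symm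
  have hlt : ({a, g a} : Finset (Fin n)).card < s.card := by
    have := Finset.card_le_two (a := a) (b := g a)
    omega
  obtain ⟨c, hc, hcn⟩ := Finset.exists_mem_notMem_of_card_lt_card hlt
  simp only [Finset.mem_insert, Finset.mem_singleton, not_or] at hcn
  obtain ⟨hca, hcb⟩ := hcn
  have hd : g c ∈ s := dt_apply_mem hg hc
  have hcd : c ≠ g c := (dt_apply_ne hg hc).symm
  have had : a ≠ g c := by
    intro h
    apply hcb
    rw [h, dt_sq_apply hg]
  have hbd : g a ≠ g c := by
    intro h
    exact hca (g.injective h).symm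
  have hseq := eq_of_four hs ha hb hc hd hab (Ne.symm hca) had (Ne.symm hcb) hbd hcd
  refine ⟨a, g a, c, g c, hab, Ne.symm hca, had, Ne.symm hcb, hbd, hcd, hseq, ?_⟩
  ext x
  by_cases hxa : x = a
  · rw [hxa, dswap_apply_1 (Ne.symm hca) had]
  by_cases hxb : x = g a
  · rw [hxb, dswap_apply_2 (Ne.symm hcb) hbd, dt_sq_apply hg]
  by_cases hxc : x = c
  · rw [hxc, dswap_apply_3 had.symm hbd.symm]
  by_cases hxd : x = g c
  · rw [hxd, dswap_apply_4 hca hcb, dt_sq_apply hg]
  rw [dswap_apply_other hxa hxb hxc hxd]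
  apply congrArg Fin.val
  apply dt_apply_of_notMem hg
  rw [hseq]
  simp only [Finset.mem_insert, Finset.mem_singleton, not_or]
  exact ⟨hxa, hxb, hxc, hxd⟩

/-- on a 4-set there is a `DT` taking `x` to any other point `y` -/
theorem dt_exists {s : Finset (Fin n)} (hs : s.card = 4) {x y : Fin n} (hx : x ∈ s) (hy : y ∈ s)
    (hxy : x ≠ y) : ∃ g, DT s g ∧ g x = y := by
  have hlt : ({x, y} : Finset (Fin n)).card < s.card := by
    have := Finset.card_le_two (a := x) (b := y)
    omega
  obtain ⟨c, hc, hcn⟩ := Finset.exists_mem_notMem_of_card_lt_card hlt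
  simp only [Finset.mem_insert, Finset.mem_singleton, not_or] at hcn
  obtain ⟨hcx, hcy⟩ := hcn
  have hlt3 : ({x, y, c} : Finset (Fin n)).card < s.card := by
    have := Finset.card_le_three (a := x) (b := y) (c := c)
    omega
  obtain ⟨d, hd, hdn⟩ := Finset.exists_mem_notMem_of_card_lt_card hlt3
  simp only [Finset.mem_insert, Finset.mem_singleton, not_or] at hdn
  obtain ⟨hdx, hdy, hdc⟩ := hdn
  have hseq := eq_of_four hs hx hy hc hd hxy (Ne.symm hcx) (Ne.symm hdx) (Ne.symm hcy)
    (Ne.symm hdy) (Ne.symm hdc)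
  refine ⟨swap x y * swap c d, ?_, dswap_apply_1 (Ne.symm hcx) (Ne.symm hdx)⟩
  rw [hseq]
  exact dt_swap hxy (Ne.symm hcx) (Ne.symm hdx) (Ne.symm hcy) (Ne.symm hdy) (Ne.symm hdc)

/-- `DT`s with disjoint supports commute -/
theorem dt_disjoint_comm {s t : Finset (Fin n)} {g g' : Perm (Fin n)} (hg : DT s g)
    (hg' : DT t g') (hst : Disjoint s t) : g * g' = g' * g := by
  have hd : Perm.Disjoint g g' := by
    intro x
    by_cases hx : x ∈ s
    · right
      apply dt_apply_of_notMem hg'
      exact Finset.disjoint_left.mp hst hx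
    · left
      exact dt_apply_of_notMem hg hx
  exact hd.commute.eq

/-- the `DT`s on a 4-set commute -/
theorem dt_comm {s : Finset (Fin n)} {g g' : Perm (Fin n)} (hs : s.card = 4) (hg : DT s g)
    (hg' : DT s g') : g * g' = g' * g := by
  ext x
  apply congrArg Fin.val
  rw [Perm.mul_apply, Perm.mul_apply]
  by_cases hx : x ∈ s
  · by_cases hgg : g x = g' x
    · rw [← hgg, dt_sq_apply hg, hgg, dt_sq_apply hg']
    · -- `x`, `g x`, `g' x` are three distinct points of `s`
      have h1 : g x ∈ s := dt_apply_mem hg hx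
      have h2 : g' x ∈ s := dt_apply_mem hg' hx
      have h3 : g (g' x) ∈ s := dt_apply_mem hg h2
      have h4 : g' (g x) ∈ s := dt_apply_mem hg' h1
      by_contra hne
      -- five pairwise distinct points cannot lie in a 4-set: use four of them plus the fifth
      have e1 : x ≠ g x := (dt_apply_ne hg hx).symm
      have e2 : x ≠ g' x := (dt_apply_ne hg' hx).symm
      have e3 : x ≠ g (g' x) := by
        intro h
        apply hgg
        have h5 := congrArg g h
        rw [dt_sq_apply hg] at h5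
        exact h5
      have e4 : g x ≠ g (g' x) := by
        intro h
        exact e2 (g.injective h)
      have e5 : g' x ≠ g (g' x) := (dt_apply_ne hg h2).symm
      have hseq := eq_of_four hs hx h1 h2 h3 e1 e2 e3 hgg e4 e5
      rw [hseq] at h4
      simp only [Finset.mem_insert, Finset.mem_singleton] at h4
      rcases h4 with h | h | h | h
      · apply hgg
        have h5 := congrArg g' h
        rw [dt_sq_apply hg'] at h5
        exact h5
      · exact dt_apply_ne hg' h1 h
      · exact e1 (g'.injective h).symm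
      · exact hne h.symm
  · rw [dt_apply_of_notMem hg' hx, dt_apply_of_notMem hg hx, dt_apply_of_notMem hg' hx]

/-- a `DT` on a 4-set is an even permutation -/
theorem dt_sign {s : Finset (Fin n)} {g : Perm (Fin n)} (hs : s.card = 4) (hg : DT s g) :
    Perm.sign g = 1 := by
  obtain ⟨a, b, c, d, hab, -, -, -, -, hcd, -, rfl⟩ := dt_cases hs hg
  rw [Perm.sign_mul, Perm.sign_swap hab, Perm.sign_swap hcd]
  rfl

end Cfsg.Agent.Lib.Helper62.Alt2
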