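import Mathlib
import Cfsg.Agent.Lib.Helper82.Alt2.Defs

set_option autoImplicit false

/-!
# S2928 package [FANO8]: a Fano configuration in a connected family with two disjoint members
extends to `AG(3,2)`
-/

namespace Cfsg.Agent.Lib.Helper62.Alt2

open Cfsg.Agent.Lib.Helper82.Alt2

/-- shifting `Fin 7` into `Fin 8` (point `j` goes to `j + 1`) -/
def sh (C : Finset (Fin 7)) : Finset (Fin 8) := C.map (Fin.succEmb 7)

set_option maxRecDepth 100000 in
/-- a nonempty set of at most 3 points meeting every coline evenly is a line -/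
theorem fano_line : ∀ R : Finset (Fin 7), R.Nonempty → R.card ≤ 3 →
    (∀ A ∈ colines, (A ∩ R).card ≠ 1 ∧ (A ∩ R).card ≠ 3) →
    R.card = 3 ∧ insert 0 (sh R) ∈ planes := by decide

set_option maxRecDepth 100000 in
/-- the planes not through `0` are the shifted colines -/
theorem planes_off : ∀ A ∈ planes, 0 ∉ A → ∃ C ∈ colines, A = sh C := by decide

set_option maxRecDepth 100000 in
/-- from one plane through `0` every other one is a symmetric difference with a plane off `0` -/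
theorem planes_step : ∀ P ∈ planes, 0 ∈ P → ∀ A ∈ planes, 0 ∈ A →
    A = P ∨ ∃ B ∈ planes, 0 ∉ B ∧ (P ∩ B).card = 2 ∧ symmDiff P B = A := by decide

theorem coline_mem : ({0, 2, 4, 6} : Finset (Fin 7)) ∈ colines := by decide

/-- leaving a set along a chain -/
theorem chain_exit {α : Type*} {r : α → α → Prop} {P : α → Prop} {a b : α}
    (h : Relation.ReflTransGen r a b) (ha : P a) (hb : ¬ P b) :
    ∃ u v, r u v ∧ P u ∧ ¬ P v := by
  induction h with
  | refl => exact absurd ha hb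
  | @tail b c hab hbc ih =>
    by_cases hP : P b
    · exact ⟨b, c, hbc, hP, hb⟩
    · exact ih hP

theorem map_symmDiff' {α β : Type*} [DecidableEq α] [DecidableEq β] (f : α ↪ β)
    (s t : Finset α) : (symmDiff s t).map f = symmDiff (s.map f) (t.map f) := by
  simp only [Finset.map_eq_image]
  exact Finset.image_symmDiff s t f.injective

theorem pkgFano8 : PkgFano8 := by
  intro n F hcard hE hD hC hdis ψ hψ
  classical
  obtain ⟨s₁, hs₁, s₂, hs₂, hdisj⟩ := hdis
  obtain ⟨Pi, hPi⟩ : ∃ Pi : Finset (Fin n), Pi = Finset.univ.map ψ := ⟨_, rfl⟩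
  have hPimem : ∀ y, y ∈ Pi ↔ ∃ j, ψ j = y := by
    intro y
    rw [hPi, Finset.mem_map]
    constructor
    · rintro ⟨j, -, hj⟩
      exact ⟨j, hj⟩
    · rintro ⟨j, hj⟩
      exact ⟨j, Finset.mem_univ j, hj⟩
  have hPicard : Pi.card = 7 := by
    rw [hPi, Finset.card_map, Finset.card_univ, Fintype.card_fin]
  -- a member not inside `Pi`
  have hex : ∃ v' ∈ F, ¬ v' ⊆ Pi := by
    by_contra hcon
    push Not at hcon
    have h1 := hcon s₁ hs₁
    have h2 := hcon s₂ hs₂
    have h3 : (s₁ ∪ s₂).card ≤ Pi.card := Finset.card_le_card (Finset.union_subset h1 h2)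
    rw [Finset.card_union_of_disjoint hdisj, hcard s₁ hs₁, hcard s₂ hs₂, hPicard] at h3
    omega
  obtain ⟨v', hv'F, hv'⟩ := hex
  have hu₀F : ({0, 2, 4, 6} : Finset (Fin 7)).map ψ ∈ F := hψ _ coline_mem
  have hu₀ : ({0, 2, 4, 6} : Finset (Fin 7)).map ψ ⊆ Pi := by
    rw [hPi]
    exact Finset.map_subset_map.mpr (Finset.subset_univ _)
  obtain ⟨u, v, hmeet, hu, hv⟩ := chain_exit (P := fun s => s ⊆ Pi) (hC _ hu₀F v' hv'F) hu₀ hv'
  obtain ⟨huF, hvF, hne⟩ := hmeet
  obtain ⟨R, hR⟩ : ∃ R : Finset (Fin 7), R = Finset.univ.filter (fun j => ψ j ∈ v) := ⟨_, rfl⟩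
  have hRmem : ∀ j, j ∈ R ↔ ψ j ∈ v := by
    intro j
    rw [hR, Finset.mem_filter]
    exact ⟨fun h => h.2, fun h => ⟨Finset.mem_univ j, h⟩⟩
  have hRne : R.Nonempty := by
    obtain ⟨y, hy⟩ := hne
    obtain ⟨hyu, hyv⟩ := Finset.mem_inter.mp hy
    obtain ⟨j, hj⟩ := (hPimem y).mp (hu hyu)
    refine ⟨j, (hRmem j).mpr ?_⟩
    rw [hj]
    exact hyv
  obtain ⟨ω, hωv, hωPi⟩ := Finset.not_subset.mp hv
  have hωψ : ∀ j, ψ j ≠ ω := by
    intro j hj
    exact hωPi ((hPimem ω).mpr ⟨j, hj⟩)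
  have hRv : R.map ψ ⊆ v.erase ω := by
    intro y hy
    obtain ⟨j, hjR, hj⟩ := Finset.mem_map.mp hy
    rw [← hj]
    exact Finset.mem_erase.mpr ⟨hωψ j, (hRmem j).mp hjR⟩
  have hRcard : R.card ≤ 3 := by
    have h1 := Finset.card_le_card hRv
    rw [Finset.card_map, Finset.card_erase_of_mem hωv, hcard v hvF] at h1
    exact h1
  have hReven : ∀ A ∈ colines, (A ∩ R).card ≠ 1 ∧ (A ∩ R).card ≠ 3 := by
    intro A hA
    have h1 := hE (A.map ψ) (hψ A hA) v hvF
    have h2 : A.map ψ ∩ v = (A ∩ R).map ψ := by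
      ext y
      rw [Finset.mem_inter, Finset.mem_map, Finset.mem_map]
      constructor
      · rintro ⟨⟨j, hjA, hj⟩, hyv⟩
        refine ⟨j, Finset.mem_inter.mpr ⟨hjA, (hRmem j).mpr ?_⟩, hj⟩
        rw [hj]
        exact hyv
      · rintro ⟨j, hjAR, hj⟩
        obtain ⟨hjA, hjR⟩ := Finset.mem_inter.mp hjAR
        refine ⟨⟨j, hjA, hj⟩, ?_⟩
        rw [← hj]
        exact (hRmem j).mp hjR
    rw [h2, Finset.card_map] at h1
    exact h1
  obtain ⟨hR3, hPR⟩ := fano_line R hRne hRcard hReven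
  have hωR : ω ∉ R.map ψ := by
    intro h
    obtain ⟨j, -, hj⟩ := Finset.mem_map.mp h
    exact hωψ j hj
  have hveq : insert ω (R.map ψ) = v := by
    apply Finset.eq_of_subset_of_card_le
    · intro y hy
      rcases Finset.mem_insert.mp hy with h | h
      · rw [h]
        exact hωv
      · exact Finset.mem_of_mem_erase (hRv h)
    · rw [Finset.card_insert_of_notMem hωR, Finset.card_map, hR3, hcard v hvF]
  -- the embedding
  have hinj : Function.Injective (@Fin.cons 7 (fun _ => Fin n) ω ψ) := by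
    apply Fin.cons_injective_of_injective
    · rintro ⟨j, hj⟩
      exact hωψ j hj
    · exact ψ.injective
  obtain ⟨φ, hφ⟩ : ∃ φ : Fin 8 ↪ Fin n, φ = ⟨@Fin.cons 7 (fun _ => Fin n) ω ψ, hinj⟩ := ⟨_, rfl⟩
  have hφ0 : φ 0 = ω := by
    rw [hφ]
    rfl
  have hφs : (Fin.succEmb 7).trans φ = ψ := by
    ext j
    rw [hφ]
    rfl
  have hm1 : ∀ C : Finset (Fin 7), (sh C).map φ = C.map ψ := by
    intro C
    unfold sh
    rw [Finset.map_map, hφs]
  have hm2 : (insert 0 (sh R)).map φ = v := by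
    rw [Finset.map_insert, hφ0, hm1, hveq]
  have hoff : ∀ B ∈ planes, 0 ∉ B → B.map φ ∈ F := by
    intro B hB hB0
    obtain ⟨C, hC', rfl⟩ := planes_off B hB hB0
    rw [hm1]
    exact hψ C hC'
  refine ⟨φ, fun A hA => ?_⟩
  by_cases hA0 : 0 ∈ A
  · rcases planes_step (insert 0 (sh R)) hPR (Finset.mem_insert_self 0 _) A hA hA0 with h | h
    · rw [h, hm2]
      exact hvF
    · obtain ⟨B, hB, hB0, hcard2, hsd⟩ := h
      have hBF := hoff B hB hB0
      have h1 : ((insert 0 (sh R)).map φ ∩ B.map φ).card = 2 := by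
        rw [← Finset.map_inter, Finset.card_map]
        exact hcard2
      have h2 := hD _ (by rw [hm2]; exact hvF) _ hBF h1
      rw [← map_symmDiff', hsd] at h2
      exact h2
  · exact hoff A hA hA0

end Cfsg.Agent.Lib.Helper62.Alt2
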