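import Mathlib
import Cfsg.Agent.Lib.Helper82.Alt2.Defs
import Cfsg.Agent.Lib.Helper62.Alt2.Klein

set_option autoImplicit false

/-!
# S2928 package [ODD]: two members meeting in 1 or 3 points give a 3-cycle in `H`
-/

namespace Cfsg.Agent.Lib.Helper62.Alt2

open Equiv
open Cfsg.Agent.Lib.Helper82.Alt2

variable {n : ℕ}

/-- transpositions with disjoint supports commute -/
theorem swap_commute_of_ne {a b c d : Fin n} (hac : a ≠ c) (had : a ≠ d) (hbc : b ≠ c)
    (hbd : b ≠ d) : Commute (swap a b) (swap c d) := by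
  have hd : Perm.Disjoint (swap a b) (swap c d) := by
    intro y
    by_cases hyc : y = c
    · left
      rw [hyc]
      exact swap_apply_of_ne_of_ne hac.symm hbc.symm
    by_cases hyd : y = d
    · left
      rw [hyd]
      exact swap_apply_of_ne_of_ne had.symm hbd.symm
    right
    exact swap_apply_of_ne_of_ne hyc hyd
  exact hd.commute

/-- a 4-set through `x`, listed -/
theorem four_of_mem {s : Finset (Fin n)} (hs : s.card = 4) {x : Fin n} (hx : x ∈ s) :
    ∃ p q r : Fin n, x ≠ p ∧ x ≠ q ∧ x ≠ r ∧ p ≠ q ∧ p ≠ r ∧ q ≠ r ∧ s = {x, p, q, r} := by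
  have h3 : (s.erase x).card = 3 := by
    rw [Finset.card_erase_of_mem hx, hs]
  obtain ⟨p, q, r, hpq, hpr, hqr, he⟩ := Finset.card_eq_three.mp h3
  have hp : p ∈ s.erase x := by
    rw [he]
    simp
  have hq : q ∈ s.erase x := by
    rw [he]
    simp
  have hr : r ∈ s.erase x := by
    rw [he]
    simp
  refine ⟨p, q, r, (Finset.ne_of_mem_erase hp).symm, (Finset.ne_of_mem_erase hq).symm,
    (Finset.ne_of_mem_erase hr).symm, hpq, hpr, hqr, ?_⟩
  rw [← he, Finset.insert_erase hx]

/-- squares of products of commuting involutions -/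
theorem sq_of_commute {G : Type*} [Group G] (τ ρ μ ν : G) (hρ : ρ * ρ = 1) (hν : ν * ν = 1)
    (h1 : Commute ρ τ) (h2 : Commute ρ μ) (h3 : Commute ρ ν) (h4 : Commute ν τ)
    (h5 : Commute ν μ) :
    (τ * ρ * (μ * ν)) * (τ * ρ * (μ * ν)) = (τ * μ) * (τ * μ) := by
  have e1 : τ * ρ * (μ * ν) = τ * μ * (ρ * ν) := Commute.mul_mul_mul_comm h2 τ ν
  have hBA : Commute (ρ * ν) (τ * μ) :=
    Commute.mul_left (Commute.mul_right h1 h2) (Commute.mul_right h4 h5)
  have e2 : τ * μ * (ρ * ν) * (τ * μ * (ρ * ν)) = τ * μ * (τ * μ) * (ρ * ν * (ρ * ν)) :=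
    Commute.mul_mul_mul_comm hBA (τ * μ) (ρ * ν)
  have e3 : ρ * ν * (ρ * ν) = ρ * ρ * (ν * ν) := Commute.mul_mul_mul_comm h3.symm ρ ν
  rw [e1, e2, e3, hρ, hν, mul_one, mul_one]

theorem pkgOdd : PkgOdd := by
  intro n H s t hs ht hcard
  rcases hcard with h1 | h3
  · -- overlap 1
    obtain ⟨x, hx⟩ := Finset.card_eq_one.mp h1
    have hxst : x ∈ s ∩ t := by
      rw [hx]
      exact Finset.mem_singleton_self x
    have hxs : x ∈ s := (Finset.mem_inter.mp hxst).1
    have hxt : x ∈ t := (Finset.mem_inter.mp hxst).2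
    have honly : ∀ y, y ∈ s → y ∈ t → y = x := by
      intro y hys hyt
      have : y ∈ s ∩ t := Finset.mem_inter.mpr ⟨hys, hyt⟩
      rw [hx] at this
      exact Finset.mem_singleton.mp this
    obtain ⟨p, q, r, hxp, hxq, hxr, hpq, hpr, hqr, hseq⟩ := four_of_mem hs.1 hxs
    obtain ⟨u, v, w, hxu, hxv, hxw, huv, huw, hvw, hteq⟩ := four_of_mem ht.1 hxt
    have hps : p ∈ s := by rw [hseq]; simp
    have hqs : q ∈ s := by rw [hseq]; simp
    have hrs : r ∈ s := by rw [hseq]; simp
    have hut : u ∈ t := by rw [hteq]; simp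
    have hvt : v ∈ t := by rw [hteq]; simp
    have hwt : w ∈ t := by rw [hteq]; simp
    have hne : ∀ y z, y ∈ s → z ∈ t → x ≠ y → y ≠ z := by
      intro y z hy hz hxy hyz
      apply hxy
      rw [hyz] at hy
      rw [hyz]
      exact (honly z hy hz).symm
    have hpu := hne p u hps hut hxp
    have hqu := hne q u hqs hut hxq
    have hqv := hne q v hqs hvt hxq
    have hqw := hne q w hqs hwt hxq
    have hru := hne r u hrs hut hxr
    have hrv := hne r v hrs hvt hxr
    have hrw := hne r w hrs hwt hxr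
    have hpv := hne p v hps hvt hxp
    have hpw := hne p w hps hwt hxp
    have ha : swap x p * swap q r ∈ H := by
      apply hs.2
      rw [hseq]
      exact dt_swap hxp hxq hxr hpq hpr hqr
    have hb : swap x u * swap v w ∈ H := by
      apply ht.2
      rw [hteq]
      exact dt_swap hxu hxv hxw huv huw hvw
    refine ⟨(swap x p * swap q r * (swap x u * swap v w)) *
      (swap x p * swap q r * (swap x u * swap v w)), H.mul_mem (H.mul_mem ha hb)
      (H.mul_mem ha hb), ?_⟩
    rw [sq_of_commute (swap x p) (swap q r) (swap x u) (swap v w) (swap_mul_self q r)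
      (swap_mul_self v w)
      (swap_commute_of_ne hxq.symm hpq.symm hxr.symm hpr.symm)
      (swap_commute_of_ne hxq.symm hqu hxr.symm hru)
      (swap_commute_of_ne hqv hqw hrv hrw)
      (swap_commute_of_ne hxv.symm hpv.symm hxw.symm hpw.symm)
      (swap_commute_of_ne hxv.symm huv.symm hxw.symm huw.symm)]
    exact (Perm.isThreeCycle_swap_mul_swap_same hxp hxu hpu).isThreeCycle_sq
  · -- overlap 3
    obtain ⟨x, y, z, hxy, hxz, hyz, he⟩ := Finset.card_eq_three.mp h3
    have hmem : ∀ a, a ∈ ({x, y, z} : Finset (Fin n)) → a ∈ s ∧ a ∈ t := by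
      intro a ha
      rw [← he] at ha
      exact Finset.mem_inter.mp ha
    have hx := hmem x (by simp)
    have hy := hmem y (by simp)
    have hz := hmem z (by simp)
    have hlts : ({x, y, z} : Finset (Fin n)).card < s.card := by
      have := Finset.card_le_three (a := x) (b := y) (c := z)
      have := hs.1
      omega
    have hltt : ({x, y, z} : Finset (Fin n)).card < t.card := by
      have := Finset.card_le_three (a := x) (b := y) (c := z)
      have := ht.1
      omega
    obtain ⟨p, hps, hpn⟩ := Finset.exists_mem_notMem_of_card_lt_card hlts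
    obtain ⟨q, hqt, hqn⟩ := Finset.exists_mem_notMem_of_card_lt_card hltt
    have hpq : p ≠ q := by
      intro h
      apply hpn
      rw [← he]
      exact Finset.mem_inter.mpr ⟨hps, by rw [h]; exact hqt⟩
    simp only [Finset.mem_insert, Finset.mem_singleton, not_or] at hpn hqn
    obtain ⟨hpx, hpy, hpz⟩ := hpn
    obtain ⟨hqx, hqy, hqz⟩ := hqn
    have hseq := eq_of_four hs.1 hx.1 hy.1 hz.1 hps hxy hxz (Ne.symm hpx) hyz (Ne.symm hpy)
      (Ne.symm hpz)
    have hteq := eq_of_four ht.1 hx.2 hy.2 hz.2 hqt hxy hxz (Ne.symm hqx) hyz (Ne.symm hqy)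
      (Ne.symm hqz)
    have ha : swap x y * swap z p ∈ H := by
      apply hs.2
      rw [hseq]
      exact dt_swap hxy hxz (Ne.symm hpx) hyz (Ne.symm hpy) (Ne.symm hpz)
    have hb : swap x y * swap z q ∈ H := by
      apply ht.2
      rw [hteq]
      exact dt_swap hxy hxz (Ne.symm hqx) hyz (Ne.symm hqy) (Ne.symm hqz)
    refine ⟨swap x y * swap z p * (swap x y * swap z q), H.mul_mem ha hb, ?_⟩
    have hc : Commute (swap x y) (swap z p) :=
      swap_commute_of_ne hxz (Ne.symm hpx) hyz (Ne.symm hpy)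
    have e : swap x y * swap z p * (swap x y * swap z q) = swap z p * swap z q := by
      rw [hc.eq]
      calc swap z p * swap x y * (swap x y * swap z q)
          = swap z p * (swap x y * swap x y) * swap z q := by group
        _ = swap z p * swap z q := by rw [swap_mul_self, mul_one]
    rw [e]
    exact Perm.isThreeCycle_swap_mul_swap_same (Ne.symm hpz) (Ne.symm hqz) hpq

end Cfsg.Agent.Lib.Helper62.Alt2
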